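import Cfsg.Agent.S4130

set_option autoImplicit false
open Cfsg Subgroup

namespace Cfsg.Agent.CS

universe u

/-- In a finite nilpotent group, if `p ^ 2` divides the class size of `x` then it divides the
class size of the `p`-part of `x`. -/
theorem fn_sq_dvd {F : Type u} [Group F] [Finite F] [Group.IsNilpotent F] (p : ℕ) [hp : Fact p.Prime]
    (x : F) (hx : p * p ∣ (centralizer ({x} : Set F)).index) :
    ∃ a : F, (∃ k, a ^ p ^ k = 1) ∧ p * p ∣ (centralizer ({a} : Set F)).index := by
  obtain ⟨a, b, ha, hb, hk, hbo, e⟩ := H3.exists_p_part p x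
  refine ⟨a, hk, ?_⟩
  obtain ⟨P⟩ : Nonempty (Sylow p F) := inferInstance
  haveI : (P : Subgroup F).Normal := inferInstance
  have hN : HasNormalPComplement p F := H3.hasNormalPComplement_of_isNilpotent
  have hd : pResidual p F ⊓ (P : Subgroup F) = ⊥ := by
    rw [inf_comm]; exact (H3.hasNormalPComplement_iff_inf_eq_bot P).1 hN
  have hbN : b ∈ pResidual p F := H3.mem_pResidual_of_coprime hbo
  have hle : (P : Subgroup F) ⊓ centralizer ({a} : Set F) ≤ centralizer ({x} : Set F) := by
    rintro g ⟨hgP, hga⟩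
    have h1 : Commute b g :=
      Subgroup.commute_of_normal_of_disjoint (pResidual p F) (P : Subgroup F) inferInstance
        inferInstance (disjoint_iff.2 hd) b g hbN hgP
    have h2 : a * g = g * a := by
      simpa [mem_centralizer_singleton_iff, eq_comm] using hga
    rw [mem_centralizer_singleton_iff, e]
    calc g * (a * b) = (g * a) * b := by group
      _ = a * (g * b) := by rw [← h2, mul_assoc]
      _ = a * b * g := by rw [← h1.eq, mul_assoc]
  have h1 : p * p ∣ ((P : Subgroup F) ⊓ centralizer ({a} : Set F)).index :=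
    hx.trans (index_dvd_of_le hle)
  have h2 := relIndex_mul_index (inf_le_right :
    (P : Subgroup F) ⊓ centralizer ({a} : Set F) ≤ centralizer ({a} : Set F))
  rw [inf_relIndex_right] at h2
  rw [← h2] at h1
  have h3 : (P : Subgroup F).relIndex (centralizer ({a} : Set F)) ∣ (P : Subgroup F).index :=
    relIndex_dvd_index_of_normal _ _
  have h4 : Nat.Coprime p ((P : Subgroup F).relIndex (centralizer ({a} : Set F))) :=
    (Nat.Prime.coprime_iff_not_dvd hp.out).2 fun h => P.not_dvd_index (h.trans h3)
  exact (Nat.Coprime.mul_left h4 h4).dvd_of_dvd_mul_left h1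

theorem fn_sqfree {G : Type u} [Group G] [Finite G]
    (h : ∀ x : G, (∃ r k : ℕ, r.Prime ∧ orderOf x = r ^ k) →
      Squarefree (Subgroup.centralizer ({x} : Set G)).index)
    (F : Subgroup G) [F.Normal] [Group.IsNilpotent F] (x : F) :
    Squarefree (centralizer ({x} : Set F)).index := by
  rw [Nat.squarefree_iff_prime_squarefree]
  intro p hp hd
  haveI := Fact.mk hp
  obtain ⟨a, ⟨k, hk⟩, ha⟩ := fn_sq_dvd p x hd
  obtain ⟨j, -, hj⟩ := (Nat.dvd_prime_pow hp).1 (orderOf_dvd_of_pow_eq_one hk)
  have h1 := h (a : G) ⟨p, j, hp, by rw [Subgroup.orderOf_coe, hj]⟩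
  have h2 : centralizer ({a} : Set F) = (centralizer ({(a : G)} : Set G)).subgroupOf F := by
    ext g
    rw [mem_subgroupOf, mem_centralizer_singleton_iff, mem_centralizer_singleton_iff]
    exact ⟨fun e => congrArg Subtype.val e, fun e => Subtype.ext e⟩
  rw [h2] at ha
  exact Nat.squarefree_iff_prime_squarefree.1 h1 p hp
    (ha.trans (H26.relIndex_dvd_index_of_normal_right (centralizer ({(a : G)} : Set G)) F))

theorem fit {G : Type u} [Group G] [Finite G]
    (h : ∀ x : G, (∃ r k : ℕ, r.Prime ∧ orderOf x = r ^ k) →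
      Squarefree (Subgroup.centralizer ({x} : Set G)).index) :
    IsCyclic (_root_.commutator ↥(Cfsg.fittingSubgroup G)) ∧
      Squarefree (Nat.card (_root_.commutator ↥(Cfsg.fittingSubgroup G))) := by
  haveI := H1.isNilpotent_fittingSubgroup G
  haveI : (Cfsg.fittingSubgroup G).Normal := inferInstance
  have := S4130.result (G := ↥(Cfsg.fittingSubgroup G)) (fn_sqfree h (Cfsg.fittingSubgroup G))
  exact ⟨this.2.2.2.1, this.2.2.2.2.1⟩

end Cfsg.Agent.CS
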